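import Cfsg.Agent.H50.L81Defs
import Cfsg.Agent.H80.FvEnt
import Cfsg.Agent.H28.FvReg

/-! Project L81, piece ADD. -/

set_option autoImplicit false

namespace Cfsg.Agent.H25.L81Add

open Equiv Cfsg.Lie H37 H40 H34 H29 Module H50.E83 H42.Fv H50.L81
open scoped Matrix

theorem neg_not {A : Set Rt} (hA : Pt A) {r : Rt} (hr : r ∈ A) : C8.R.neg r ∉ A := fun h => by
  obtain ⟨-, l, hl, hp⟩ := hA
  have h1 := hp _ hr
  have h2 := hp _ h
  rw [hl] at h1 h2
  simp only [C8.R.rc_neg, Pi.neg_apply, neg_mul, Finset.sum_neg_distrib] at h2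
  omega

theorem act_xg (r : Rt) (t : K) (v : V) : act (C8.xg K r t) v = xR K r t *ᵥ v := by
  rw [act_apply, xg_eq]

theorem stab {A : Set Rt} (hA : Pt A) (x : GK) (hx : x ∈ P8.U A) (y : V) (hy : Supp A y) :
    Supp A (act x y) ∧ cp (act x y) = cp y := by
  obtain ⟨cf, h1, h2⟩ := H80.FvEnt.entS
  revert x
  refine Split.U_ind_left (by rw [map_one]; exact ⟨hy, rfl⟩) ?_
  rintro r hr x hx g - ⟨i1, i2⟩
  obtain ⟨t, rfl⟩ := Cert.mem_X.1 hx
  have h0 : act g y (Sum.inr (C8.R.neg r)) = 0 := by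
    by_contra h
    exact neg_not hA hr (i1 _ h)
  rw [act_mul, act_xg, ← i2]
  refine ⟨fun s hs => ?_, funext fun i => ?_⟩
  · by_contra hs'
    apply hs
    rw [(h2 K r t _).2, if_neg (fun h => hs' (by rw [h]; exact hr)), add_zero,
      not_not.1 fun h => hs' (i1 s h), zero_add]
    refine Finset.sum_eq_zero fun s' _ => ?_
    by_cases h : cf r s' s = 0
    · rw [h, Int.cast_zero, zero_mul, zero_mul]
    · rw [not_not.1 fun h' => hs' (hA.1 r hr s' (i1 s' h') s (h1 _ _ _ h)), mul_zero]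
  · rcases i with i | i
    · exact ((h2 K r t _).1 i).trans (by rw [h0, mul_zero, zero_mul, add_zero]; rfl)
    · simp only [cp, Sum.elim_inr]

theorem cf_mul {A : Set Rt} (hA : Pt A) {a : Rt} {x y : GK} {c c' : K} (hy : y ∈ P8.U A)
    (h : Cf A a x c) (h' : Cf A a y c') : Cf A a (x * y) (c + c') := fun v hv => by
  obtain ⟨s1, s2⟩ := stab hA y hy v hv
  rw [act_mul, h _ s1, h' v hv, ← al_cp a (act y v), s2, al_cp]
  ring

theorem cf_xg {A : Set Rt} (hA : Pt A) {a : Rt} (ha : a ∈ Ind A) {r : Rt} (hr : r ∈ A) (t : K) :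
    Cf A a (C8.xg K r t) (if a = r then t else 0) := fun v hv => by
  obtain ⟨cf, h1, h2⟩ := H80.FvEnt.entS
  have h0 : v (Sum.inr (C8.R.neg r)) = 0 := by
    by_contra h
    exact neg_not hA hr (hv _ h)
  rw [act_xg, (h2 K r t _).2, h0, Finset.sum_eq_zero fun s' _ => ?_]
  · split_ifs with e
    · rw [e]; ring
    · ring
  · by_cases h : cf r s' a = 0
    · rw [h, Int.cast_zero, zero_mul, zero_mul]
    · rw [not_not.1 fun h' => ha.2 ⟨r, hr, s', hv s' h', h1 _ _ _ h⟩, mul_zero]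

theorem add : AddStmt := by
  refine fun A hA => ⟨stab hA, fun a ha => ?_, fun a x c c' h h' => ?_,
    fun a x c y hy c' => cf_mul hA hy⟩
  · refine Split.U_ind_left ⟨0, fun v _ => by rw [map_one, zero_mul, sub_zero]; rfl⟩ ?_
    rintro r hr x hx g hg ⟨c, hc⟩
    obtain ⟨t, rfl⟩ := Cert.mem_X.1 hx
    exact ⟨_, cf_mul hA hg (cf_xg hA ha hr t) hc⟩
  · obtain ⟨v, h1, h2⟩ := H28.FvR.reg
    have s : Supp A v := fun r hr => (h1 r hr).elim
    exact mul_right_cancel₀ (h2 a) (sub_right_injective ((h v s).symm.trans (h' v s)))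

end Cfsg.Agent.H25.L81Add
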