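import Cfsg.Agent.Lead.PcDefs
import Cfsg.Agent.H35.PcRed

/-! Project PL, piece SOC. -/

set_option autoImplicit false

namespace Cfsg.Agent.H25.PlSoc

open Subgroup Cfsg.Agent.Lead.Pc Cfsg.Agent.H35.PcRed

universe u

theorem soc0 {H : Type*} [Group H] [Finite H] [Nontrivial H]
    (h : ∀ {a b : H}, orderOf a = 2 → orderOf b = 2 → ∃ g : H, b = g * a * g⁻¹)
    (hr : ∀ N : Subgroup H, N.Normal → Group.IsSolvable N → N = ⊥) :
    ∃ S : Subgroup H, S.Normal ∧ IsSimpleGroup S ∧ ¬ IsMulCommutative S ∧
      centralizer (S : Set H) = ⊥ := by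
  obtain ⟨S, ⟨hS, hb⟩, hmin⟩ := (wellFounded_lt (α := Subgroup H)).has_min
    {N | N.Normal ∧ N ≠ ⊥} ⟨⊤, inferInstance, top_ne_bot⟩
  have ns : ¬ Group.IsSolvable S := fun e => hb (hr S hS e)
  have nc : ¬ IsMulCommutative S := fun e => ns (Group.isSolvable_of_comm fun a b => e.1.1 a b)
  refine ⟨S, hS, ?_, nc, ?_⟩
  · obtain ⟨T, _, m, hT, hm, ⟨e⟩⟩ := S0721.result S hb (fun M hM hle => by
      by_contra hn
      push Not at hn
      exact hmin M ⟨hM, hn.1⟩ (lt_of_le_of_ne hle hn.2))
    have fT : Finite (Fin m → T) := Finite.of_equiv S e.toEquiv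
    have : Nonempty (Fin m) := ⟨⟨0, hm⟩⟩
    have : Finite T := Finite.of_injective (Function.const (Fin m)) Function.const_injective
    have ncT : ¬ ∀ a b : T, a * b = b * a := fun c => nc ⟨⟨fun a b => e.injective (by
      rw [map_mul, map_mul]; funext i; exact c _ _)⟩⟩
    have nsT : ¬ Group.IsSolvable T := fun c => ncT (IsSimpleGroup.comm_iff_isSolvable.2 c)
    obtain ⟨t, ht⟩ := inv_of_ns T nsT
    by_cases m1 : m = 1
    · subst m1
      exact (e.trans (MulEquiv.funUnique (Fin 1) T)).isSimpleGroup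
    exfalso
    have m2 : 1 < m := by omega
    obtain ⟨u, hu⟩ : ∃ u : T, u * t ≠ t * u := by
      by_contra hn
      push Not at hn
      rcases (inferInstance : (center T).Normal).eq_bot_or_eq_top with c | c
      · have : t ∈ center T := mem_center_iff.2 hn
        rw [c, mem_bot] at this
        rw [this, orderOf_one] at ht
        omega
      · exact ncT fun a b => mem_center_iff.1 (c ▸ mem_top b) a
    let i0 : Fin m := ⟨0, hm⟩
    let i1 : Fin m := ⟨1, m2⟩
    have i01 : i1 ≠ i0 := fun c => by simpa [i0, i1] using congrArg Fin.val c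
    let a : Fin m → T := Pi.mulSingle i0 t
    let b : Fin m → T := fun _ => t
    have oa : orderOf a = 2 := by
      rw [← ht]
      exact orderOf_injective (MonoidHom.mulSingle (fun _ : Fin m => T) i0)
        (Pi.mulSingle_injective (M := fun _ : Fin m => T) i0) t
    have ob : orderOf b = 2 := by
      rw [← ht]
      exact orderOf_injective (Pi.constMonoidHom (Fin m) T) Function.const_injective t
    obtain ⟨g, hg⟩ := h (a := (e.symm a : S)) (b := (e.symm b : S))
      (by rw [orderOf_coe, e.symm.orderOf_eq, oa]) (by rw [orderOf_coe, e.symm.orderOf_eq, ob])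
    let φ : (Fin m → T) ≃* (Fin m → T) := (e.symm.trans (MulAut.conjNormal g)).trans e
    have φa : φ a = b := by
      have : MulAut.conjNormal g (e.symm a) = e.symm b := Subtype.ext (by
        rw [MulAut.conjNormal_apply]; exact hg.symm)
      simp [φ, this]
    have le : centralizer ({b} : Set (Fin m → T)) ≤ centralizer {a} := by
      intro s hs
      rw [mem_centralizer_singleton_iff] at hs ⊢
      funext i
      by_cases c : i = i0
      · subst c
        simpa [a, b] using congrFun hs i0
      · simp [a, Pi.mulSingle_eq_of_ne c]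
    have cd : Nat.card (centralizer ({a} : Set (Fin m → T))) ≤
        Nat.card (centralizer ({b} : Set (Fin m → T))) := by
      refine Nat.card_le_card_of_injective (fun s => ⟨φ s.1, ?_⟩) ?_
      · have := mem_centralizer_singleton_iff.1 s.2
        rw [mem_centralizer_singleton_iff, ← φa, ← map_mul, ← map_mul, this]
      · intro s s' c
        exact Subtype.ext (φ.injective (congrArg Subtype.val c))
    have eq := eq_of_le_of_card_ge le cd
    have m : (Pi.mulSingle i1 u : Fin m → T) ∈ centralizer ({a} : Set (Fin m → T)) := by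
      rw [mem_centralizer_singleton_iff]
      exact (Pi.mulSingle_commute (f := fun _ : Fin m => T) i01 u t).eq
    rw [← eq, mem_centralizer_singleton_iff] at m
    apply hu
    simpa [b] using congrFun m i1
  · by_contra hc
    have nC : ¬ Group.IsSolvable (centralizer (S : Set H)) := fun e => hc (hr _ inferInstance e)
    obtain ⟨c, oc⟩ := inv_of_ns _ nC
    obtain ⟨s, os⟩ := inv_of_ns _ ns
    obtain ⟨g, hg⟩ := h (a := (s : H)) (b := (c : H)) (by rw [orderOf_coe, os])
      (by rw [orderOf_coe, oc])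
    have cS : (c : H) ∈ S := hg ▸ hS.conj_mem _ s.2 g
    have z : S ⊓ centralizer (S : Set H) = ⊥ := hr _ inferInstance
      (Group.isSolvable_of_comm fun x y => Subtype.ext (mem_centralizer_iff.1 y.2.2 x x.2.1))
    have : (c : H) ∈ S ⊓ centralizer (S : Set H) := ⟨cS, c.2⟩
    rw [z, mem_bot] at this
    have : c = 1 := Subtype.ext this
    rw [this, orderOf_one] at oc
    omega

theorem cp_inv {G : Type u} [Group G] (h : CP G) {a b : G} (ha : orderOf a = 2)
    (hb : orderOf b = 2) : ∃ g : G, b = g * a * g⁻¹ := by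
  have b2 : b ^ 2 = 1 := hb ▸ pow_orderOf_eq_one b
  obtain ⟨g, k, hk⟩ := h b a ⟨1, by rw [pow_one, b2]⟩ (ha.trans hb.symm)
  refine ⟨g, ?_⟩
  have hk' : b ^ k = g * a * g⁻¹ := hk
  have b2' : b ^ (2 : ℤ) = 1 := by exact_mod_cast b2
  rcases Int.even_or_odd' k with ⟨j, rfl | rfl⟩
  · rw [zpow_mul, b2', one_zpow, eq_comm, conj_eq_one_iff] at hk'
    rw [hk', orderOf_one] at ha
    omega
  · rwa [zpow_add, zpow_mul, b2', one_zpow, one_mul, zpow_one] at hk'

theorem soc : SocStmt.{u} := by
  intro G _ _ h _ hr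
  obtain ⟨S, s1, s2, s3, s4⟩ := soc0 (cp_inv h) hr
  obtain ⟨P⟩ : Nonempty (Sylow 2 S) := inferInstance
  refine ⟨S, (P : Subgroup S).map S.subtype, h, s1, s2, s3, s4, map_subtype_le _,
    P.isPGroup'.map _, ?_⟩
  rw [relIndex, subgroupOf, comap_map_eq_self_of_injective S.subtype_injective,
    ← Nat.not_even_iff_odd, even_iff_two_dvd]
  exact P.not_dvd_index

end Cfsg.Agent.H25.PlSoc
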