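import Cfsg.Agent.H58.SWDefs

/-! Project SW, piece FISOL: the centraliser of a field of matrices. -/

set_option autoImplicit false
set_option linter.unusedVariables false
open Matrix Cfsg Module

namespace Cfsg.Agent.H25.SwFisoL

open Cfsg.Agent.H58.SW

section Phi
variable {F K : Type} [Field F] [Field K] [Algebra F K] {n s : ℕ}
  [Module K (Fin n → F)] [IsScalarTower F K (Fin n → F)]

theorem mat_ext {x y : Mt n F} (h : ∀ v, x *ᵥ v = y *ᵥ v) : x = y :=
  Matrix.toLin'.injective (LinearMap.ext fun v => by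
    rw [Matrix.toLin'_apply, Matrix.toLin'_apply, h])

/-- the underlying map -/
noncomputable def phi0 (b : Basis (Fin s) K (Fin n → F)) (y : Matrix (Fin s) (Fin s) K) : Mt n F :=
  LinearMap.toMatrix' ((Matrix.toLin b b y).restrictScalars F)

theorem phi0_mulVec (b : Basis (Fin s) K (Fin n → F)) (y : Matrix (Fin s) (Fin s) K)
    (v : Fin n → F) : phi0 b y *ᵥ v = Matrix.toLin b b y v := by
  rw [phi0, ← Matrix.toLin'_apply, Matrix.toLin'_toMatrix']
  rfl

/-- matrices over `K` as matrices over `F` -/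
noncomputable def Phi (b : Basis (Fin s) K (Fin n → F)) : Matrix (Fin s) (Fin s) K →+* Mt n F where
  toFun := phi0 b
  map_one' := mat_ext fun v => by rw [phi0_mulVec, Matrix.toLin_one, one_mulVec]; rfl
  map_mul' x y := mat_ext fun v => by
    rw [← mulVec_mulVec, phi0_mulVec, phi0_mulVec, phi0_mulVec, Matrix.toLin_mul b b b]; rfl
  map_zero' := mat_ext fun v => by rw [phi0_mulVec, map_zero, zero_mulVec]; rfl
  map_add' x y := mat_ext fun v => by
    rw [add_mulVec, phi0_mulVec, phi0_mulVec, phi0_mulVec, map_add]; rfl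

theorem Phi_mulVec (b : Basis (Fin s) K (Fin n → F)) (y : Matrix (Fin s) (Fin s) K)
    (v : Fin n → F) : Phi b y *ᵥ v = Matrix.toLin b b y v := phi0_mulVec b y v

theorem Phi_inj (b : Basis (Fin s) K (Fin n → F)) : Function.Injective (Phi b) := fun x y h =>
  (Matrix.toLin b b).injective (LinearMap.ext fun v => by
    rw [← Phi_mulVec, ← Phi_mulVec, h])

theorem Phi_smul (b : Basis (Fin s) K (Fin n → F)) (j : K → Mt n F)
    (hj : ∀ k v, k • v = j k *ᵥ v) (k : K) : Phi b (k • 1) = j k :=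
  mat_ext fun v => by
    rw [Phi_mulVec, map_smul, Matrix.toLin_one, ← hj]; rfl

theorem Phi_range (b : Basis (Fin s) K (Fin n → F)) (j : K → Mt n F)
    (hj : ∀ k v, k • v = j k *ᵥ v) (x : Mt n F) :
    (∀ k, Commute x (j k)) ↔ ∃ y, Phi b y = x := by
  constructor
  · intro h
    let f : (Fin n → F) →ₗ[K] (Fin n → F) :=
      { toFun := fun v => x *ᵥ v
        map_add' := fun v w => mulVec_add _ _ _
        map_smul' := fun k v => by
          rw [RingHom.id_apply, hj, hj, mulVec_mulVec, mulVec_mulVec, (h k).eq] }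
    refine ⟨LinearMap.toMatrix b b f, mat_ext fun v => ?_⟩
    rw [Phi_mulVec, Matrix.toLin_toMatrix]
    rfl
  · rintro ⟨y, rfl⟩ k
    rw [← Phi_smul b j hj k]
    exact (((Commute.one_right y).smul_right k)).map (Phi b)

theorem dim_eq (b : Basis (Fin s) K (Fin n → F)) : n = s * finrank F K := by
  have h := Module.finrank_mul_finrank F K (Fin n → F)
  rw [Module.finrank_eq_card_basis b, Fintype.card_fin, Module.finrank_fin_fun] at h
  rw [← h, mul_comm]

end Phi

section Mod
variable {F K : Type} [Field F] [Field K] [Algebra F K] {n : ℕ}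

/-- the module structure given by `j` -/
@[reducible] noncomputable def modK (j : K →ₐ[F] Mt n F) : Module K (Fin n → F) where
  smul k v := j k *ᵥ v
  one_smul v := by show j 1 *ᵥ v = v; rw [map_one, one_mulVec]
  mul_smul a b v := by show j (a * b) *ᵥ v = j a *ᵥ j b *ᵥ v; rw [map_mul, mulVec_mulVec]
  smul_zero a := by show j a *ᵥ 0 = 0; rw [mulVec_zero]
  smul_add a v w := by show j a *ᵥ (v + w) = j a *ᵥ v + j a *ᵥ w; rw [mulVec_add]
  add_smul a b v := by show j (a + b) *ᵥ v = j a *ᵥ v + j b *ᵥ v; rw [map_add, add_mulVec]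
  zero_smul v := by show j 0 *ᵥ v = 0; rw [map_zero, zero_mulVec]

theorem towerK (j : K →ₐ[F] Mt n F) :
    letI := modK j
    IsScalarTower F K (Fin n → F) :=
  letI := modK j
  ⟨fun a k v => by
    show j (a • k) *ᵥ v = a • (j k *ᵥ v)
    rw [map_smul, smul_mulVec]⟩

theorem gen (j : K →ₐ[F] Mt n F) :
    ∃ (s : ℕ) (Φ : Matrix (Fin s) (Fin s) K →+* Mt n F), n = s * finrank F K ∧
      Function.Injective Φ ∧ (∀ x : Mt n F, (∀ k, Commute x (j k)) ↔ ∃ y, Φ y = x) ∧
      ∀ k : K, Φ (k • 1) = j k := by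
  letI := modK j
  haveI := towerK j
  haveI : Module.Finite K (Fin n → F) := Module.Finite.of_restrictScalars_finite F K _
  let b := Module.finBasis K (Fin n → F)
  exact ⟨_, Phi b, dim_eq b, Phi_inj b, Phi_range b j (fun _ _ => rfl),
    Phi_smul b j (fun _ _ => rfl)⟩

end Mod

section Fld
variable {F : Type} [Field F] [Fintype F] [DecidableEq F] {n : ℕ}

theorem mem_span {A : Subgroup (Gl n F)} {a : Gl n F} (ha : a ∈ A) : (a : Mt n F) ∈ spanG A :=
  Submodule.subset_span ⟨a, ha, rfl⟩

theorem span_mul {A : Subgroup (Gl n F)} {x y : Mt n F} (hx : x ∈ spanG A) (hy : y ∈ spanG A) :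
    x * y ∈ spanG A := by
  induction hx using Submodule.span_induction with
  | mem x hx =>
    induction hy using Submodule.span_induction with
    | mem y hy =>
      obtain ⟨a, ha, rfl⟩ := hx
      obtain ⟨b, hb, rfl⟩ := hy
      exact mem_span (mul_mem ha hb)
    | zero => rw [mul_zero]; exact zero_mem _
    | add y z _ _ h1 h2 => rw [mul_add]; exact add_mem h1 h2
    | smul c y _ h1 => rw [mul_smul_comm]; exact Submodule.smul_mem _ _ h1
  | zero => rw [zero_mul]; exact zero_mem _
  | add x z _ _ h1 h2 => rw [add_mul]; exact add_mem h1 h2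
  | smul c x _ h1 => rw [smul_mul_assoc]; exact Submodule.smul_mem _ _ h1

theorem comm_span {A : Subgroup (Gl n F)} {x : Mt n F} (h : ∀ a ∈ A, Commute x (a : Mt n F))
    {y : Mt n F} (hy : y ∈ spanG A) : Commute x y := by
  induction hy using Submodule.span_induction with
  | mem y hy =>
    obtain ⟨b, hb, rfl⟩ := hy
    exact h b hb
  | zero => exact Commute.zero_right _
  | add y z _ _ h1 h2 => exact h1.add_right h2
  | smul c y _ h1 => exact h1.smul_right c

theorem span_comm {A : Subgroup (Gl n F)} (hA : Ab A) {x y : Mt n F} (hx : x ∈ spanG A)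
    (hy : y ∈ spanG A) : Commute x y :=
  comm_span (fun a ha => (comm_span (fun b hb => (hA a ha b hb).map (Units.coeHom _)) hx).symm) hy

/-- the span as a subalgebra -/
def SA (A : Subgroup (Gl n F)) : Subalgebra F (Mt n F) :=
  (spanG A).toSubalgebra (mem_span (one_mem A)) (fun _ _ => span_mul)

theorem isField (hn : 0 < n) {A : Subgroup (Gl n F)} (hA : Ab A) (hF : IsFld A) :
    IsField (SA A) := by
  haveI : Nonempty (Fin n) := ⟨⟨0, hn⟩⟩
  refine ⟨⟨0, 1, fun h => zero_ne_one (congrArg Subtype.val h)⟩,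
    fun x y => Subtype.ext (span_comm hA x.2 y.2), fun {a} ha => ?_⟩
  rcases hF a.1 a.2 with h | ⟨b, hb, h⟩
  · exact absurd (Subtype.ext h) ha
  · exact ⟨⟨b, hb⟩, Subtype.ext h⟩

/-- the span of `A` as an abstract field -/
theorem fld (hn : 0 < n) {A : Subgroup (Gl n F)} (hA : Ab A) (hF : IsFld A) :
    ∃ (K : Type) (_ : Field K) (_ : Fintype K) (_ : Algebra F K) (j : K →ₐ[F] Mt n F),
      (∀ x, x ∈ spanG A ↔ ∃ k, j k = x) ∧ finrank F K = finrank F (spanG A) := by
  classical
  exact ⟨SA A, (isField hn hA hF).toField, Fintype.ofFinite _, (SA A).algebra, (SA A).val,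
    fun x => ⟨fun h => ⟨⟨x, h⟩, rfl⟩, fun ⟨k, hk⟩ => hk ▸ k.2⟩, rfl⟩

end Fld

theorem fisoL : FisoLStmt := by
  intro F _ _ _ n c hu A hA hF
  classical
  obtain ⟨K, _, _, _, j, h1, h2⟩ := fld (by have := c.hn; omega) hA hF
  obtain ⟨s, Φ, h3, h4, h5, h6⟩ := gen j
  haveI := c.chr
  refine ⟨K, inferInstance, inferInstance, inferInstance, s, j, Φ,
    charP_of_injective_algebraMap (algebraMap F K).injective c.p, h1, ?_, h2 ▸ h3, h4,
    fun x => ?_, h6, fun h => absurd (hu ▸ h) (by simp)⟩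
  · rw [← h2]
    exact Module.card_eq_pow_finrank
  · rw [← h5]
    exact ⟨fun h k => comm_span h ((h1 _).2 ⟨k, rfl⟩), fun h a ha => by
      obtain ⟨k, hk⟩ := (h1 _).1 (mem_span ha)
      exact hk ▸ h k⟩

end Cfsg.Agent.H25.SwFisoL
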